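import Mathlib

/-!
Numerical bounds for weighted tuples of self-conjugate polynomials.
-/

set_option autoImplicit false

namespace CfsgLib.GUClassCount

open Finset

/-- Number of self-conjugate monic polynomials of degree `d` over the field with `q ^ 2` elements. -/
def cntU (q : ℕ) : ℕ → ℕ
  | 0 => 1
  | d + 1 => (q + 1) * q ^ d

/-- Number of weighted tuples supported at weights above `i`. -/
def bndU (q : ℕ) : ℕ → ℕ → ℕ → ℕ
  | 0, _, w => if w = 0 then 1 else 0
  | k + 1, i, w => ∑ d ∈ range (w / (i + 1) + 1), cntU q d * bndU q k (i + 1) (w - (i + 1) * d)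

theorem cntU_scale {a b : ℕ} (h : a ≤ b) (d : ℕ) : cntU b d * a ^ d ≤ cntU a d * b ^ d := by
  rcases d with _ | d
  · simp [cntU]
  · show (b + 1) * b ^ d * a ^ (d + 1) ≤ (a + 1) * a ^ d * b ^ (d + 1)
    have : (b + 1) * a ≤ (a + 1) * b := by rw [Nat.add_mul, Nat.add_mul, Nat.mul_comm]; omega
    calc (b + 1) * b ^ d * a ^ (d + 1) = (b + 1) * a * (a ^ d * b ^ d) := by ring
      _ ≤ (a + 1) * b * (a ^ d * b ^ d) := Nat.mul_le_mul_right _ this
      _ = (a + 1) * a ^ d * b ^ (d + 1) := by ring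

/-- The counts are polynomials with nonnegative coefficients and controlled degree. -/
theorem bndU_scale {a b : ℕ} (h : a ≤ b) :
    ∀ k i w e, w / (i + 1) ≤ e → bndU b k i w * a ^ e ≤ bndU a k i w * b ^ e
  | 0, i, w, e, _ => by
    rw [bndU, bndU]
    exact Nat.mul_le_mul_left _ (Nat.pow_le_pow_left h e)
  | k + 1, i, w, e, he => by
    rw [bndU, bndU, sum_mul, sum_mul]
    refine sum_le_sum fun d hd => ?_
    have hd' : d ≤ w / (i + 1) := Nat.lt_succ_iff.mp (mem_range.mp hd)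
    have hr : (w - (i + 1) * d) / (i + 1 + 1) ≤ e - d := by
      refine le_trans (Nat.div_le_div_left (Nat.le_succ _) (Nat.succ_pos i)) ?_
      rw [Nat.sub_mul_div]
      exact Nat.sub_le_sub_right he d
    obtain ⟨e', rfl⟩ : ∃ e', e = d + e' := ⟨e - d, by omega⟩
    rw [Nat.add_sub_cancel_left] at hr
    calc cntU b d * bndU b k (i + 1) (w - (i + 1) * d) * a ^ (d + e')
        = cntU b d * a ^ d * (bndU b k (i + 1) (w - (i + 1) * d) * a ^ e') := by ring
      _ ≤ cntU a d * b ^ d * (bndU a k (i + 1) (w - (i + 1) * d) * b ^ e') :=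
          Nat.mul_le_mul (cntU_scale h d) (bndU_scale h k (i + 1) _ e' hr)
      _ = _ := by ring

theorem bndU_mono (q : ℕ) : ∀ k i w, bndU q k i w ≤ bndU q (k + 1) i w
  | 0, i, w => by
    by_cases hw : w = 0
    · subst hw; simp [bndU, cntU]
    · rw [bndU, if_neg hw]; exact Nat.zero_le _
  | k + 1, i, w => by
    conv_lhs => rw [bndU]
    conv_rhs => rw [bndU]
    exact sum_le_sum fun d _ => Nat.mul_le_mul_left _ (bndU_mono q k _ _)

theorem bndU_mono' (q : ℕ) {k k' : ℕ} (h : k ≤ k') (i w : ℕ) : bndU q k i w ≤ bndU q k' i w := by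
  induction h with
  | refl => exact le_rfl
  | step _ ih => exact ih.trans (bndU_mono q _ i w)

theorem conv_step (k i : ℕ) (n : ℕ) {C : ℝ} (hC : 0 ≤ C)
    (h : ∑ v ∈ range n, (bndU 2 k (i + 1) v : ℝ) * (1 / 2) ^ v ≤ C) :
    ∑ w ∈ range n, (bndU 2 (k + 1) i w : ℝ) * (1 / 2) ^ w ≤
      (∑ d ∈ range n, (cntU 2 d : ℝ) * (1 / 2) ^ ((i + 1) * d)) * C := by
  refine le_trans ?_ (mul_le_mul_of_nonneg_left h (sum_nonneg fun d _ => by positivity))
  rw [sum_mul_sum, ← sum_product']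
  have h1 : ∑ w ∈ range n, (bndU 2 (k + 1) i w : ℝ) * (1 / 2) ^ w =
      ∑ x ∈ (range n).sigma fun w => range (w / (i + 1) + 1),
        (cntU 2 x.2 : ℝ) * (1 / 2) ^ ((i + 1) * x.2) *
          ((bndU 2 k (i + 1) (x.1 - (i + 1) * x.2) : ℝ) * (1 / 2) ^ (x.1 - (i + 1) * x.2)) := by
    rw [sum_sigma]
    refine sum_congr rfl fun w _ => ?_
    rw [bndU, Nat.cast_sum, sum_mul]
    refine sum_congr rfl fun d hd => ?_
    have : (i + 1) * d ≤ w := by
      rw [mul_comm]; exact (Nat.le_div_iff_mul_le (by omega)).mp (Nat.lt_succ_iff.mp (mem_range.mp hd))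
    conv_lhs => rw [← Nat.add_sub_cancel' this, pow_add, Nat.add_sub_cancel' this]
    push_cast
    ring
  rw [h1, ← sum_image (g := fun x : (_ : ℕ) × ℕ => (x.2, x.1 - (i + 1) * x.2))
    (f := fun p : ℕ × ℕ => (cntU 2 p.1 : ℝ) * (1 / 2) ^ ((i + 1) * p.1) * ((bndU 2 k (i + 1) p.2 : ℝ) * (1 / 2) ^ p.2))]
  · refine sum_le_sum_of_subset_of_nonneg ?_ fun p _ _ => by positivity
    intro p hp
    simp only [mem_image, mem_sigma, mem_range] at hp
    obtain ⟨⟨w, d⟩, ⟨hw, hd⟩, rfl⟩ := hp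
    have hdw : (i + 1) * d ≤ w := by
      rw [mul_comm]; exact (Nat.le_div_iff_mul_le (by omega)).mp (Nat.lt_succ_iff.mp hd)
    dsimp only at hw hd
    simp only [mem_product, mem_range]
    exact ⟨lt_of_le_of_lt (le_trans (Nat.le_mul_of_pos_left d (by omega)) hdw) hw, by omega⟩
  · rintro ⟨w, d⟩ hx ⟨w', d'⟩ hx' e
    simp only [mem_coe, mem_sigma, mem_range] at hx hx'
    simp only [Prod.mk.injEq] at e
    obtain ⟨rfl, e⟩ := e
    have h1 : (i + 1) * d ≤ w := by
      rw [mul_comm]; exact (Nat.le_div_iff_mul_le (by omega)).mp (Nat.lt_succ_iff.mp hx.2)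
    have h2 : (i + 1) * d ≤ w' := by
      rw [mul_comm]; exact (Nat.le_div_iff_mul_le (by omega)).mp (Nat.lt_succ_iff.mp hx'.2)
    obtain rfl : w = w' := by omega
    rfl

theorem series_le {j : ℕ} (hj : 2 ≤ j) (n : ℕ) :
    ∑ d ∈ range n, (cntU 2 d : ℝ) * (1 / 2) ^ (j * d) ≤ (1 + (1 / 2 : ℝ) ^ j) / (1 - 2 * (1 / 2) ^ j) := by
  obtain ⟨x, hx⟩ : ∃ x : ℝ, x = (1 / 2) ^ j := ⟨_, rfl⟩
  have hx4 : x ≤ 1 / 4 := by
    rw [hx]; exact le_trans (pow_le_pow_of_le_one (by norm_num) (by norm_num) hj) (by norm_num)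
  have hx0 : 0 ≤ x := by rw [hx]; positivity
  rw [← hx, le_div_iff₀ (by linarith)]
  rcases n with _ | n
  · simp; linarith
  have hterm : ∀ d, (cntU 2 (d + 1) : ℝ) * (1 / 2) ^ (j * (d + 1)) = 3 * x * (2 * x) ^ d := fun d => by
    rw [pow_mul, ← hx]
    show ((((2 + 1) * 2 ^ d : ℕ)) : ℝ) * _ = _
    push_cast
    ring
  rw [sum_range_succ', Nat.mul_zero, pow_zero, sum_congr rfl fun d _ => hterm d, ← mul_sum]
  simp only [cntU, Nat.cast_one, mul_one]
  have hg := geom_sum_mul (2 * x) n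
  have hp : 0 ≤ (2 * x) ^ n := by positivity
  nlinarith [hg, mul_nonneg hx0 hp]

theorem partU_tail : ∀ k i, 2 ≤ i → ∀ n,
    ∑ w ∈ range n, (bndU 2 k i w : ℝ) * (1 / 2) ^ w ≤ 1 / (1 - 3 * (1 / 2) ^ i) := by
  have hx : ∀ i, 2 ≤ i → (1 / 2 : ℝ) ^ i ≤ 1 / 4 := fun i hi =>
    le_trans (pow_le_pow_of_le_one (by norm_num) (by norm_num) hi) (by norm_num)
  intro k
  induction k with
  | zero =>
    intro i hi n
    refine le_trans (b := 1) ?_ ?_
    · rcases n with _ | n
      · simp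
      · rw [sum_range_succ']; simp [bndU]
    · rw [le_div_iff₀ (by linarith [hx i hi]), one_mul]
      have : 0 ≤ (1 / 2 : ℝ) ^ i := by positivity
      linarith
  | succ k ih =>
    intro i hi n
    have h1 := hx (i + 1) (by omega)
    have h2 := hx i hi
    have h0 : 0 ≤ (1 / 2 : ℝ) ^ (i + 1) := by positivity
    refine (conv_step k i n (le_of_lt (one_div_pos.mpr (by linarith))) (ih (i + 1) (by omega) n)).trans ?_
    refine le_trans (mul_le_mul_of_nonneg_right (series_le (by omega) n) (le_of_lt (one_div_pos.mpr (by linarith)))) ?_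
    rw [div_mul_div_comm, mul_one, show (1 / 2 : ℝ) ^ i = 2 * (1 / 2) ^ (i + 1) by rw [pow_succ]; ring]
    rw [show (1 / 2 : ℝ) ^ i = 2 * (1 / 2) ^ (i + 1) by rw [pow_succ]; ring] at h2
    rw [div_le_div_iff₀ (mul_pos (by linarith) (by linarith)) (by linarith)]
    nlinarith

theorem partU_step {i : ℕ} (hi : 1 ≤ i) {C : ℝ} (hC : 1 ≤ C)
    (h : ∀ k n, ∑ v ∈ range n, (bndU 2 k (i + 1) v : ℝ) * (1 / 2) ^ v ≤ C) {D : ℝ}
    (hD : (1 + (1 / 2 : ℝ) ^ (i + 1)) / (1 - 2 * (1 / 2) ^ (i + 1)) * C ≤ D) (hD1 : 1 ≤ D) :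
    ∀ k n, ∑ w ∈ range n, (bndU 2 k i w : ℝ) * (1 / 2) ^ w ≤ D := by
  intro k n
  rcases k with _ | k
  · refine le_trans ?_ hD1
    rcases n with _ | n
    · simp
    · rw [sum_range_succ']; simp [bndU]
  · exact (conv_step k i n (by linarith) (h k n)).trans
      ((mul_le_mul_of_nonneg_right (series_le (by omega) n) (by linarith)).trans hD)

theorem partU_one (k n : ℕ) : ∑ w ∈ range n, (bndU 2 k 1 w : ℝ) * (1 / 2) ^ w ≤ 551 / 100 := by
  have h6 : ∀ k n, ∑ w ∈ range n, (bndU 2 k 6 w : ℝ) * (1 / 2) ^ w ≤ 64 / 61 := fun k n =>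
    (partU_tail k 6 (by omega) n).trans (by norm_num)
  have h5 := partU_step (i := 5) (by omega) (by norm_num) h6 (D := 110 / 100) (by norm_num) (by norm_num)
  have h4 := partU_step (i := 4) (by omega) (by norm_num) h5 (D := 121 / 100) (by norm_num) (by norm_num)
  have h3 := partU_step (i := 3) (by omega) (by norm_num) h4 (D := 14693 / 10000) (by norm_num) (by norm_num)
  have h2 := partU_step (i := 2) (by omega) (by norm_num) h3 (D := 22040 / 10000) (by norm_num) (by norm_num)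
  exact partU_step (i := 1) le_rfl (by norm_num) h2 (D := 551 / 100) (by norm_num) (by norm_num) k n

/-- Classes with trivial splitting. -/
def mainCount (q n : ℕ) : ℕ := (∑ w ∈ range n, q ^ (n - 1 - w) * bndU q (n - 1) 1 w) + bndU q (n - 1) 1 n

/-- Extra classes coming from splitting. -/
def extraCount (q n c : ℕ) : ℕ :=
  ∑ r ∈ (range (n + 1)).filter (fun r => 2 ≤ r ∧ r ∣ n ∧ r ≤ c), (r - 1) * bndU q (n / r) 0 (n / r)

theorem mainCount_scale {a b n : ℕ} (h : a ≤ b) (hn : 2 ≤ n) :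
    mainCount b n * a ^ (n - 1) ≤ mainCount a n * b ^ (n - 1) := by
  rw [mainCount, mainCount, Nat.add_mul, Nat.add_mul, sum_mul, sum_mul]
  refine Nat.add_le_add (sum_le_sum fun w hw => ?_) (bndU_scale h _ 1 n (n - 1) (by omega))
  have hwn : w ≤ n - 1 := by have := mem_range.mp hw; omega
  obtain ⟨r, hr⟩ : ∃ r, n - 1 = w + r := ⟨n - 1 - w, by omega⟩
  rw [hr, Nat.add_sub_cancel_left]
  calc b ^ r * bndU b (w + r) 1 w * a ^ (w + r) = b ^ r * a ^ r * (bndU b (w + r) 1 w * a ^ w) := by ring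
    _ ≤ b ^ r * a ^ r * (bndU a (w + r) 1 w * b ^ w) :=
        Nat.mul_le_mul_left _ (bndU_scale h _ 1 w w (Nat.div_le_self _ _))
    _ = _ := by ring

theorem extraCount_scale {a b n c : ℕ} (h : a ≤ b) : extraCount b n c * a ^ (n - 1) ≤ extraCount a n c * b ^ (n - 1) := by
  rw [extraCount, extraCount, sum_mul, sum_mul]
  refine sum_le_sum fun r hr => ?_
  obtain ⟨hr1, hr2, -⟩ := (mem_filter.mp hr).2
  rw [Nat.mul_assoc, Nat.mul_assoc]
  refine Nat.mul_le_mul_left _ (bndU_scale h _ 0 _ _ ?_)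
  rw [Nat.zero_add, Nat.div_one]
  rcases Nat.eq_zero_or_pos n with rfl | hn
  · simp
  · have := Nat.div_lt_self hn hr1; omega

theorem bndU_full (q : ℕ) (hq : 2 ≤ q) (k w : ℕ) : 100 * bndU q k 0 w ≤ 827 * q ^ w := by
  have h2 : 100 * bndU 2 k 0 w ≤ 827 * 2 ^ w := by
    rcases k with _ | k
    · rw [bndU]; split_ifs <;> have := Nat.one_le_two_pow (n := w) <;> omega
    have hc : ∀ d, (cntU 2 d : ℝ) ≤ 3 / 2 * 2 ^ d := fun d => by
      rcases d with _ | d
      · norm_num [cntU]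
      · show (((2 + 1) * 2 ^ d : ℕ) : ℝ) ≤ _
        push_cast
        rw [pow_succ]; linarith
    have h : (bndU 2 (k + 1) 0 w : ℝ) ≤ 3 / 2 * 2 ^ w * (551 / 100) := by
      refine le_trans ?_ (mul_le_mul_of_nonneg_left (partU_one k (w + 1)) (by positivity))
      rw [bndU, Nat.cast_sum, mul_sum, ← sum_range_reflect (fun v => 3 / 2 * (2 : ℝ) ^ w * ((bndU 2 k 1 v : ℝ) * (1 / 2) ^ v))]
      simp only [Nat.zero_add, Nat.div_one, Nat.one_mul, Nat.add_sub_cancel]
      refine sum_le_sum fun d hd => ?_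
      have hdw : d ≤ w := Nat.lt_succ_iff.mp (mem_range.mp hd)
      rw [Nat.cast_mul]
      refine (mul_le_mul_of_nonneg_right (hc d) (Nat.cast_nonneg _)).trans (le_of_eq ?_)
      rw [one_div, inv_pow]
      conv_rhs => arg 1; rw [← Nat.add_sub_cancel' hdw, pow_add]
      field_simp
    have : ((100 * bndU 2 (k + 1) 0 w : ℕ) : ℝ) ≤ ((827 * 2 ^ w : ℕ) : ℝ) := by
      push_cast
      have : (0 : ℝ) < 2 ^ w := by positivity
      linarith
    exact_mod_cast this
  have hs := bndU_scale hq k 0 w w (by simp)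
  refine Nat.le_of_mul_le_mul_right ?_ (pow_pos two_pos w)
  calc 100 * bndU q k 0 w * 2 ^ w = 100 * (bndU q k 0 w * 2 ^ w) := Nat.mul_assoc _ _ _
    _ ≤ 100 * (bndU 2 k 0 w * q ^ w) := Nat.mul_le_mul_left _ hs
    _ = 100 * bndU 2 k 0 w * q ^ w := (Nat.mul_assoc _ _ _).symm
    _ ≤ 827 * 2 ^ w * q ^ w := Nat.mul_le_mul_right _ h2
    _ = 827 * q ^ w * 2 ^ w := by ring

theorem mainCount_large {n : ℕ} (hn : 11 ≤ n) : 100 * mainCount 2 n ≤ 689 * 2 ^ (n - 1) := by
  obtain ⟨f, hf⟩ : ∃ f : ℕ → ℝ, f = fun w => (bndU 2 (n - 1) 1 w : ℝ) * (1 / 2) ^ w := ⟨_, rfl⟩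
  have hS : (mainCount 2 n : ℝ) = 2 ^ (n - 1) * (2 * ∑ w ∈ range (n + 1), f w - ∑ w ∈ range n, f w) := by
    rw [sum_range_succ, mainCount, Nat.cast_add, Nat.cast_sum,
      show 2 * (∑ w ∈ range n, f w + f n) - ∑ w ∈ range n, f w = ∑ w ∈ range n, f w + 2 * f n by ring, mul_add, mul_sum]
    congr 1
    · refine sum_congr rfl fun w hw => ?_
      have hwn : w ≤ n - 1 := by have := mem_range.mp hw; omega
      simp only [hf, one_div, inv_pow]
      rw [Nat.cast_mul, Nat.cast_pow]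
      conv_rhs => arg 1; rw [← Nat.add_sub_cancel' hwn, pow_add]
      push_cast
      field_simp
    · simp only [hf, one_div, inv_pow]
      rw [← mul_assoc, ← pow_succ, show n - 1 + 1 = n by omega]
      field_simp
  have h9 : (414 / 100 : ℝ) ≤ ∑ w ∈ range n, f w := by
    refine le_trans ?_ (sum_le_sum_of_subset_of_nonneg (s := range 9) (fun x hx => mem_range.mpr (by have := mem_range.mp hx; omega))
      fun w _ _ => by rw [hf]; positivity)
    refine le_trans ?_ (sum_le_sum (f := fun w => (bndU 2 5 1 w : ℝ) * (1 / 2) ^ w) fun w _ => ?_)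
    · have hv : (List.range 9).map (bndU 2 5 1) = [1, 0, 3, 3, 9, 12, 30, 36, 84] := by decide +kernel
      simp only [List.range_succ, List.range_zero, List.map_append, List.map_cons, List.map_nil, List.nil_append,
        List.cons_append, List.cons.injEq, and_true] at hv
      obtain ⟨a0, a1, a2, a3, a4, a5, a6, a7, a8⟩ := hv
      simp only [sum_range_succ, sum_range_zero, a0, a1, a2, a3, a4, a5, a6, a7, a8]
      norm_num
    · rw [hf]
      exact mul_le_mul_of_nonneg_right (Nat.cast_le.mpr (bndU_mono' 2 (by omega) 1 w)) (by positivity)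
  have hP := partU_one (n - 1) (n + 1)
  rw [show ∑ w ∈ range (n + 1), (bndU 2 (n - 1) 1 w : ℝ) * (1 / 2) ^ w = ∑ w ∈ range (n + 1), f w by rw [hf]] at hP
  have : ((100 * mainCount 2 n : ℕ) : ℝ) ≤ ((689 * 2 ^ (n - 1) : ℕ) : ℝ) := by
    push_cast
    rw [hS]
    have : (0 : ℝ) < 2 ^ (n - 1) := by positivity
    nlinarith
  exact_mod_cast this

theorem small_two : ∀ n ∈ Finset.Icc 2 10, 100 * (mainCount 2 n + extraCount 2 n 3) ≤ 826 * 2 ^ (n - 1) := by
  decide +kernel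

theorem small_three : ∀ n ∈ Finset.Icc 2 10, 100 * (mainCount 3 n + extraCount 3 n n) ≤ 826 * 3 ^ (n - 1) := by
  decide +kernel

theorem total_bound (q n : ℕ) (hq : 2 ≤ q) (hn : 2 ≤ n) :
    100 * (mainCount q n + extraCount q n (q + 1)) ≤ 826 * q ^ (n - 1) := by
  rcases Nat.lt_or_ge n 11 with hs | hl
  · have hmem : n ∈ Finset.Icc 2 10 := mem_Icc.mpr ⟨hn, by omega⟩
    rcases Nat.lt_or_ge q 3 with h | h
    · obtain rfl : q = 2 := by omega
      exact small_two n hmem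
    · have hsub : extraCount q n (q + 1) ≤ extraCount q n n := sum_le_sum_of_subset_of_nonneg (fun r hr => by
        rw [mem_filter] at hr ⊢
        exact ⟨hr.1, hr.2.1, hr.2.2.1, Nat.le_of_dvd (by omega) hr.2.2.1⟩) fun _ _ _ => Nat.zero_le _
      refine Nat.le_of_mul_le_mul_right ?_ (pow_pos (by omega : 0 < 3) (n - 1))
      calc 100 * (mainCount q n + extraCount q n (q + 1)) * 3 ^ (n - 1)
          ≤ 100 * (mainCount q n * 3 ^ (n - 1) + extraCount q n n * 3 ^ (n - 1)) := by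
            rw [Nat.mul_assoc, Nat.add_mul]
            exact Nat.mul_le_mul_left _ (Nat.add_le_add_left (Nat.mul_le_mul_right _ hsub) _)
        _ ≤ 100 * (mainCount 3 n * q ^ (n - 1) + extraCount 3 n n * q ^ (n - 1)) :=
            Nat.mul_le_mul_left _ (Nat.add_le_add (mainCount_scale h hn) (extraCount_scale h))
        _ = 100 * (mainCount 3 n + extraCount 3 n n) * q ^ (n - 1) := by ring
        _ ≤ 826 * 3 ^ (n - 1) * q ^ (n - 1) := Nat.mul_le_mul_right _ (small_three n hmem)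
        _ = 826 * q ^ (n - 1) * 3 ^ (n - 1) := by ring
  · have hm : 100 * mainCount q n ≤ 689 * q ^ (n - 1) := by
      refine Nat.le_of_mul_le_mul_right ?_ (pow_pos two_pos (n - 1))
      calc 100 * mainCount q n * 2 ^ (n - 1) = 100 * (mainCount q n * 2 ^ (n - 1)) := Nat.mul_assoc _ _ _
        _ ≤ 100 * (mainCount 2 n * q ^ (n - 1)) := Nat.mul_le_mul_left _ (mainCount_scale hq hn)
        _ = 100 * mainCount 2 n * q ^ (n - 1) := (Nat.mul_assoc _ _ _).symm
        _ ≤ 689 * 2 ^ (n - 1) * q ^ (n - 1) := Nat.mul_le_mul_right _ (mainCount_large hl)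
        _ = _ := by ring
    have he : 100 * extraCount q n (q + 1) ≤ q * (q * (827 * q ^ (n / 2))) := by
      rw [extraCount, mul_sum]
      refine (sum_le_card_nsmul _ _ (q * (827 * q ^ (n / 2))) fun r hr => ?_).trans ?_
      · obtain ⟨hr1, hr2, hr3⟩ := (mem_filter.mp hr).2
        rw [Nat.mul_left_comm]
        exact Nat.mul_le_mul (by omega) ((bndU_full q hq _ _).trans (Nat.mul_le_mul_left _
          (Nat.pow_le_pow_right (by omega) (Nat.div_le_div_left hr1 two_pos))))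
      · rw [smul_eq_mul]
        refine Nat.mul_le_mul_right _ ((card_le_card (t := Icc 2 (q + 1)) fun r hr => ?_).trans (le_of_eq (by simp)))
        obtain ⟨hr1, -, hr3⟩ := (mem_filter.mp hr).2
        exact mem_Icc.mpr ⟨hr1, hr3⟩
    have hp : q * (q * (827 * q ^ (n / 2))) ≤ 137 * q ^ (n - 1) := by
      obtain ⟨s, hs⟩ : ∃ s, n - 1 = n / 2 + 2 + 3 + s := ⟨n - 1 - (n / 2 + 5), by omega⟩
      have h8 : 8 ≤ q ^ 3 := Nat.pow_le_pow_left hq 3
      have h1 : 1 ≤ q ^ s := Nat.one_le_pow _ _ (by omega)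
      rw [hs, pow_add, pow_add]
      calc q * (q * (827 * q ^ (n / 2))) = q ^ (n / 2 + 2) * 827 := by ring
        _ ≤ q ^ (n / 2 + 2) * (137 * (q ^ 3 * q ^ s)) := Nat.mul_le_mul_left _ (by
            have := Nat.mul_le_mul h8 h1; omega)
        _ = 137 * (q ^ (n / 2 + 2) * q ^ 3 * q ^ s) := by ring
    omega

end CfsgLib.GUClassCount
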