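import Cfsg.Agent.GUClassCount.Tuples
import Cfsg.Agent.GLClassCount.Unique
import Cfsg.Agent.FormConj.Unitary
import Cfsg.Agent.Unitary.Basic
import Cfsg.Agent.UnitarySemiCount.CentDet
import Cfsg.Agent.S2587

/-!
Classes of the special unitary group through tuples of self-conjugate polynomials.
-/

set_option autoImplicit false

namespace CfsgLib.GUClassCount

open Polynomial Module CfsgLib.GLClassCount CfsgLib.FormConj

variable {K : Type*} [Field K] [Fintype K] {n : ℕ} {θ : K →+* K}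

theorem dag_eq_adj (A : Matrix (Fin n) (Fin n) K) : adj θ (1 : Matrix (Fin n) (Fin n) K) A = dag θ A := by
  rw [adj, inv_one, Matrix.one_mul, Matrix.mul_one]

/-- The determinant quotient of a commuting matrix comes from a commuting isometry. -/
theorem exists_unitary_det (hθ : ∀ a, θ (θ a) = a) (hne : θ ≠ RingHom.id K) {A a : Matrix (Fin n) (Fin n) K}
    (hA : dag θ A * A = 1) (ha : IsUnit a.det) (haA : a * A = A * a) :
    ∃ w : Matrix (Fin n) (Fin n) K, dag θ w * w = 1 ∧ w * A = A * w ∧ w.det * θ a.det = a.det := by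
  obtain ⟨h, hh⟩ : ∃ h, h = dag θ a * a := ⟨_, rfl⟩
  have hdA : dag θ A = A⁻¹ := (Matrix.inv_eq_left_inv hA).symm
  have hAu : IsUnit A.det := isUnit_of_mul_isUnit_right (x := (dag θ A).det) (by rw [← Matrix.det_mul, hA, Matrix.det_one]; exact isUnit_one)
  have hdagA : ∀ B, B * A = A * B → dag θ B * A = A * dag θ B := fun B hB => by
    have h1 : dag θ A * dag θ B = dag θ B * dag θ A := by rw [← dag_mul, ← dag_mul, hB]
    rw [hdA] at h1
    have h2 := congrArg (fun M => A * M * A) h1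
    simp only [Matrix.mul_assoc, Matrix.mul_nonsing_inv_cancel_left _ _ hAu, Matrix.nonsing_inv_mul _ hAu,
      Matrix.mul_one] at h2
    exact h2
  have hhA : h * A = A * h := by
    rw [hh, Matrix.mul_assoc, haA, ← Matrix.mul_assoc, hdagA a haA, Matrix.mul_assoc]
  have hhu : IsUnit h.det := by rw [hh, Matrix.det_mul]; exact (isUnit_det_dag θ ha).mul ha
  have hdh : dag θ h = h := by rw [hh, dag_mul, dag_dag θ hθ]
  obtain ⟨t, ht⟩ : ∃ t, θ t ≠ t := by
    by_contra hc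
    push Not at hc
    exact hne (RingHom.ext hc)
  obtain ⟨hnorm, -⟩ := exists_in_adjoin θ hθ (G := (1 : Matrix (Fin n) (Fin n) K)) (by simp)
    (S := ({h} : Set (Matrix (Fin n) (Fin n) K)))
    (by intro x hx y hy; rw [Set.mem_singleton_iff.1 hx, Set.mem_singleton_iff.1 hy])
    (by intro s hs; rw [Set.mem_singleton_iff.1 hs, dag_eq_adj, hdh]; exact Algebra.subset_adjoin rfl)
    (by intro s hs; rw [Set.mem_singleton_iff.1 hs, dag_eq_adj, dag_eq_adj, hdh, hdh])
    (E := 0) (zero_mem _) (mul_zero 0) (by simp [adj, dag])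
    ⟨algebraMap K _ t, Subalgebra.algebraMap_mem _ _, by
      rw [dag_eq_adj, dag_algebraMap, ← map_sub, add_zero, ← Matrix.isUnit_iff_isUnit_det]
      exact (Ne.isUnit (sub_ne_zero.2 (Ne.symm ht))).map _⟩
  obtain ⟨C, hC, hCu, hCh⟩ := hnorm h (Algebra.subset_adjoin rfl) hhu (by rw [dag_eq_adj, hdh])
    (by rw [Matrix.mul_zero])
  rw [dag_eq_adj] at hCh
  have hCh' : C * h = h * C :=
    (Algebra.commute_of_mem_adjoin_of_forall_mem_commute (a := h) hC fun b hb => by rw [Set.mem_singleton_iff.1 hb]; exact Commute.refl h).symm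
  have hCA : C * A = A * C :=
    (Algebra.commute_of_mem_adjoin_of_forall_mem_commute (a := A) hC fun b hb => by
      rw [Set.mem_singleton_iff.1 hb]; exact hhA.symm).symm
  have hnormal : dag θ C * C = C * dag θ C := by
    rw [← hCh, ← Matrix.mul_assoc] at hCh'
    have := congrArg (fun M => M * C⁻¹) hCh'
    simp only [Matrix.mul_nonsing_inv_cancel_right _ _ hCu] at this
    exact this.symm
  have hCd := isUnit_det_dag θ hCu
  have hu : dag θ (a * C⁻¹) * (a * C⁻¹) = 1 := by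
    calc dag θ (a * C⁻¹) * (a * C⁻¹) = dag θ C⁻¹ * (dag θ a * a) * C⁻¹ := by rw [dag_mul]; simp only [Matrix.mul_assoc]
      _ = dag θ C⁻¹ * (dag θ C * C) * C⁻¹ := by rw [← hh, hCh]
      _ = dag θ (C * C⁻¹) * (C * C⁻¹) := by rw [dag_mul]; simp only [Matrix.mul_assoc]
      _ = 1 := by rw [Matrix.mul_nonsing_inv _ hCu, dag_one, Matrix.mul_one]
  have huA : (a * C⁻¹) * A = A * (a * C⁻¹) := by
    rw [Matrix.mul_assoc, inv_mul_conj hCu hCA, ← Matrix.mul_assoc, haA, Matrix.mul_assoc]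
  have hv : dag θ (C * (dag θ C)⁻¹) * (C * (dag θ C)⁻¹) = 1 := by
    have e1 : dag θ (dag θ C)⁻¹ = C⁻¹ := by
      refine (Matrix.inv_eq_left_inv ?_).symm
      nth_rw 2 [← dag_dag θ hθ C]
      rw [← dag_mul, Matrix.mul_nonsing_inv _ hCd, dag_one]
    calc dag θ (C * (dag θ C)⁻¹) * (C * (dag θ C)⁻¹) = C⁻¹ * (dag θ C * C) * (dag θ C)⁻¹ := by
          rw [dag_mul, e1]; simp only [Matrix.mul_assoc]
      _ = 1 := by rw [hnormal, ← Matrix.mul_assoc C⁻¹, Matrix.nonsing_inv_mul _ hCu, Matrix.one_mul, Matrix.mul_nonsing_inv _ hCd]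
  have hvA : (C * (dag θ C)⁻¹) * A = A * (C * (dag θ C)⁻¹) := by
    rw [Matrix.mul_assoc, inv_mul_conj hCd (hdagA C hCA), ← Matrix.mul_assoc, hCA, Matrix.mul_assoc]
  refine ⟨a * C⁻¹ * (a * C⁻¹) * (C * (dag θ C)⁻¹), ?_, ?_, ?_⟩
  · calc dag θ (a * C⁻¹ * (a * C⁻¹) * (C * (dag θ C)⁻¹)) * (a * C⁻¹ * (a * C⁻¹) * (C * (dag θ C)⁻¹))
        = dag θ (C * (dag θ C)⁻¹) * (dag θ (a * C⁻¹) * (dag θ (a * C⁻¹) * (a * C⁻¹)) * (a * C⁻¹)) * (C * (dag θ C)⁻¹) := by
          rw [dag_mul θ (a * C⁻¹ * (a * C⁻¹)), dag_mul θ (a * C⁻¹) (a * C⁻¹)]; simp only [Matrix.mul_assoc]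
      _ = 1 := by rw [hu, Matrix.mul_one, hu, Matrix.mul_one, hv]
  · rw [Matrix.mul_assoc, hvA, ← Matrix.mul_assoc, Matrix.mul_assoc (a * C⁻¹) _ A, huA, ← Matrix.mul_assoc (a * C⁻¹) A, huA]
    simp only [Matrix.mul_assoc]
  · have hN : θ a.det * a.det = θ C.det * C.det := by
      have := congrArg Matrix.det (hh ▸ hCh)
      rw [Matrix.det_mul, Matrix.det_mul, det_dag, det_dag] at this
      exact this.symm
    rw [Matrix.det_mul, Matrix.det_mul, Matrix.det_mul, Matrix.det_mul, Matrix.det_nonsing_inv, Matrix.det_nonsing_inv, det_dag]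
    simp only [Ring.inverse_eq_inv']
    have hc := hCu.ne_zero
    have hc' : θ C.det ≠ 0 := (map_ne_zero θ).mpr hc
    field_simp
    linear_combination a.det * hN

theorem dag_pow (A : Matrix (Fin n) (Fin n) K) (k : ℕ) : dag θ (A ^ k) = dag θ A ^ k := by
  induction k with
  | zero => rw [pow_zero, pow_zero, dag_one]
  | succ k ih => rw [pow_succ, dag_mul, ih, pow_succ']

theorem dag_aeval (A : Matrix (Fin n) (Fin n) K) (Q : K[X]) : dag θ (aeval A Q) = aeval (dag θ A) (Q.map θ) := by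
  induction Q using Polynomial.induction_on' with
  | add p q hp hq => rw [map_add, dag_add, hp, hq, Polynomial.map_add, map_add]
  | monomial k c =>
    rw [map_monomial, aeval_monomial, aeval_monomial, dag_mul, dag_pow, dag_algebraMap, Algebra.commutes]

theorem aeval_reflect {A : Type*} [Ring A] [Algebra K A] (g : Aˣ) (N : ℕ) (P : K[X]) (hP : P.natDegree ≤ N) :
    aeval (g : A) (reflect N P) = (g : A) ^ N * aeval ((g⁻¹ : Aˣ) : A) P := by
  refine induction_with_natDegree_le (fun P => aeval (g : A) (reflect N P) = (g : A) ^ N * aeval ((g⁻¹ : Aˣ) : A) P)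
    N (by simp) (fun k r _ hk => ?_) (fun p q _ _ hp hq => ?_) P hP
  · rw [reflect_C_mul_X_pow, revAt_le hk, map_mul, map_mul, aeval_C, aeval_C, map_pow, map_pow, aeval_X, aeval_X,
      ← Units.val_pow_eq_pow_val, ← Units.val_pow_eq_pow_val, ← Units.val_pow_eq_pow_val, ← mul_assoc,
      ← Algebra.commutes, mul_assoc, ← Units.val_mul, inv_pow, pow_sub _ hk]
  · rw [reflect_add, map_add, map_add, hp, hq, mul_add]

omit [Fintype K] in
theorem rank_map_conj (hθ : ∀ a, θ (θ a) = a) [Finite K] (B : Matrix (Fin n) (Fin n) K) :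
    Nat.card {v : Fin n → K // Matrix.mulVec (B.map θ) v = 0} = Nat.card {v : Fin n → K // Matrix.mulVec B v = 0} := by
  let E : K ≃ K := ⟨θ, θ, hθ, hθ⟩
  refine (Nat.card_congr (Equiv.subtypeEquiv (Equiv.arrowCongr (Equiv.refl (Fin n)) E) fun v => ?_)).symm
  show _ ↔ Matrix.mulVec (B.map θ) (θ ∘ v) = 0
  have : Matrix.mulVec (B.map θ) (θ ∘ v) = θ ∘ Matrix.mulVec B v := funext fun i => (RingHom.map_mulVec θ B v i).symm
  rw [this]
  constructor
  · intro h; rw [h]; exact funext fun i => map_zero θ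
  · intro h; exact funext fun i => θ.injective ((congrFun h i).trans (map_zero θ).symm)

theorem card_ker_transpose (B : Matrix (Fin n) (Fin n) K) :
    Nat.card {v : Fin n → K // Matrix.mulVec B.transpose v = 0} = Nat.card {v : Fin n → K // Matrix.mulVec B v = 0} := by
  have key : ∀ B : Matrix (Fin n) (Fin n) K, Nat.card {v : Fin n → K // Matrix.mulVec B v = 0} =
      Nat.card K ^ (n - B.rank) := fun B => by
    have h := LinearMap.finrank_range_add_finrank_ker B.mulVecLin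
    rw [Module.finrank_pi, Fintype.card_fin] at h
    rw [show {v : Fin n → K // Matrix.mulVec B v = 0} = ↥(LinearMap.ker B.mulVecLin) from rfl,
      Module.natCard_eq_pow_finrank (K := K), Matrix.rank]
    congr 1
    omega
  rw [key, key, Matrix.rank_transpose]

theorem card_torsion_matrix (g : Matrix (Fin n) (Fin n) K) (Q : K[X]) :
    Nat.card {x : Module.AEval' (Matrix.toLin' g) // Q • x = 0} =
      Nat.card {v : Fin n → K // Matrix.mulVec (aeval g Q) v = 0} := by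
  refine (Nat.card_congr (Equiv.subtypeEquiv (Module.AEval'.of (Matrix.toLin' g)).toEquiv fun v => ?_)).symm
  show _ ↔ Q • Module.AEval'.of (Matrix.toLin' g) v = 0
  rw [← Module.AEval.of_aeval_smul, LinearEquiv.map_eq_zero_iff]
  have : aeval (Matrix.toLin' g) Q = Matrix.toLin' (aeval g Q) := aeval_algHom_apply Matrix.toLinAlgEquiv'.toAlgHom g Q
  show _ ↔ (aeval (Matrix.toLin' g) Q) v = 0
  rw [this, Matrix.toLin'_apply]

/-- A polynomial and its conjugate reciprocal have kernels of equal size at an isometry. -/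
theorem card_ker_tilde (hθ : ∀ a, θ (θ a) = a) (g : GL (Fin n) K) (hg : dag θ g.1 * g.1 = 1) {Q : K[X]}
    (h0 : Q.coeff 0 ≠ 0) :
    Nat.card {v : Fin n → K // Matrix.mulVec (aeval g.1 (tilde θ Q)) v = 0} =
      Nat.card {v : Fin n → K // Matrix.mulVec (aeval g.1 Q) v = 0} := by
  have hginv : (g⁻¹).1 = dag θ g.1 := by rw [Matrix.coe_units_inv]; exact Matrix.inv_eq_left_inv hg
  have h1 : aeval g.1 (tilde θ Q) = (θ (Q.coeff 0))⁻¹ • (g.1 ^ (Q.map θ).natDegree * (dag θ (aeval g.1 Q))) := by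
    rw [tilde, map_mul, aeval_C, reverse, aeval_reflect g _ _ le_rfl, hginv, dag_aeval, Algebra.smul_def]
  rw [h1, ← rank_map_conj hθ (aeval g.1 Q), ← card_ker_transpose ((aeval g.1 Q).map θ)]
  refine Nat.card_congr (Equiv.subtypeEquivRight fun v => ?_)
  show _ ↔ Matrix.mulVec (dag θ (aeval g.1 Q)) v = 0
  rw [Matrix.smul_mulVec, smul_eq_zero_iff_right (inv_ne_zero ((map_ne_zero θ).mpr h0)), ← Matrix.mulVec_mulVec]
  have hinj : Function.Injective (Matrix.mulVec (g.1 ^ (Q.map θ).natDegree)) :=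
    Matrix.mulVec_injective_iff_isUnit.mpr (g.isUnit.pow _)
  exact ⟨fun h => hinj (h.trans (Matrix.mulVec_zero _).symm), fun h => by rw [h, Matrix.mulVec_zero]⟩

theorem count_eq [DecidableEq K[X]] {m : ℕ} (p : Fin m → K[X]) (e : Fin m → ℕ) (P : K[X]) (j : ℕ) :
    Multiset.count P ((Finset.univ.filter fun i => e i = j + 1).val.map p) +
      ((∑ i ∈ Finset.univ.filter (fun i => p i = P), min j (e i)) +
        ∑ i ∈ Finset.univ.filter (fun i => p i = P), min (j + 2) (e i)) =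
      2 * ∑ i ∈ Finset.univ.filter (fun i => p i = P), min (j + 1) (e i) := by
  rw [Multiset.count_map, ← Finset.filter_val, ← Finset.card_def, Finset.filter_filter,
    show (Finset.univ.filter fun i => e i = j + 1 ∧ P = p i) =
      (Finset.univ.filter fun i => p i = P).filter (fun i => e i = j + 1) by
      rw [Finset.filter_filter]; exact Finset.filter_congr fun i _ => ⟨fun h => ⟨h.2.symm, h.1⟩, fun h => ⟨h.2, h.1.symm⟩⟩,
    Finset.card_filter, ← Finset.sum_add_distrib, ← Finset.sum_add_distrib, Finset.mul_sum]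
  exact Finset.sum_congr rfl fun i _ => by split_ifs <;> omega

/-- The code of an isometry is self-conjugate. -/
theorem encode_self (hθ : ∀ a, θ (θ a) = a) (g : GL (Fin n) K) (hg : dag θ g.1 * g.1 = 1) {m : ℕ} {p : Fin m → K[X]}
    {e : Fin m → ℕ} (hp : ∀ i, Irreducible (p i) ∧ (p i).Monic ∧ e i ≠ 0) (hp0 : ∀ i, (p i).coeff 0 ≠ 0)
    (hT : HasType (M := Module.AEval' (Matrix.toLin' g.1)) p e) (j : Fin n) :
    tilde θ (encode p e n j) = encode p e n j := by
  classical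
  rw [encode, tilde_prod, Finset.prod_eq_multiset_prod, Finset.prod_eq_multiset_prod]
  congr 1
  ext P
  by_cases hP : Irreducible P ∧ P.Monic ∧ P.coeff 0 ≠ 0
  · obtain ⟨hP1, hP2, hP3⟩ := hP
    have hS : ∀ k, (∑ i ∈ Finset.univ.filter (fun i => p i = tilde θ P), min k (e i)) =
        ∑ i ∈ Finset.univ.filter (fun i => p i = P), min k (e i) := fun k => by
      have h3 : (tilde θ P) ^ k = tilde θ (P ^ k) := by
        induction k with
        | zero => rw [pow_zero, pow_zero, tilde_one]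
        | succ k ih => rw [pow_succ, pow_succ, tilde_mul, ih]
      have h1 := card_torsion hp hT hP1 hP2 k
      have h2 := card_torsion hp hT (irreducible_tilde θ hθ hP2 hP1 hP3) (monic_tilde θ hP3) k
      rw [natDegree_tilde θ hP3, card_torsion_matrix, h3, card_ker_tilde hθ g hg (Q := P ^ k)
        (by rw [coeff_zero_eq_eval_zero, eval_pow, ← coeff_zero_eq_eval_zero]; exact pow_ne_zero _ hP3),
        ← card_torsion_matrix, h1] at h2
      exact (Nat.eq_of_mul_eq_mul_left hP1.natDegree_pos (Nat.pow_right_injective Fintype.one_lt_card h2)).symm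
    have hmap : Multiset.count P ((Finset.univ.filter fun i => e i = (j : ℕ) + 1).val.map fun i => tilde θ (p i)) =
        Multiset.count (tilde θ P) ((Finset.univ.filter fun i => e i = (j : ℕ) + 1).val.map p) := by
      rw [Multiset.count_map, Multiset.count_map]
      congr 1
      refine Multiset.filter_congr fun i _ => ⟨fun h => ?_, fun h => ?_⟩
      · rw [h, tilde_tilde θ hθ (hp i).2.1 (hp0 i)]
      · rw [← h, tilde_tilde θ hθ hP2 hP3]
    rw [hmap]
    have h1 := count_eq p e P j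
    have h2 := count_eq p e (tilde θ P) j
    rw [hS, hS, hS] at h2
    omega
  · rw [Multiset.count_eq_zero.mpr, Multiset.count_eq_zero.mpr] <;> intro hmem <;>
      obtain ⟨i, -, rfl⟩ := Multiset.mem_map.mp hmem
    · exact hP ⟨(hp i).1, (hp i).2.1, hp0 i⟩
    · exact hP ⟨irreducible_tilde θ hθ (hp i).2.1 (hp i).1 (hp0 i), monic_tilde θ (hp0 i), by
        rw [coeff_zero_tilde θ (hp i).2.1]; exact inv_ne_zero ((map_ne_zero θ).mpr (hp0 i))⟩

theorem detVal_encode (g : GL (Fin n) K) {m : ℕ} {p : Fin m → K[X]} {e : Fin m → ℕ}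
    (hp : ∀ i, (p i).Monic) (he : ∀ i, e i ≠ 0) (hn : ∀ i, e i ≤ n)
    (hT : HasType (M := Module.AEval' (Matrix.toLin' g.1)) p e) : detVal (encode p e n) = g.1.det := by
  rw [(encode_weight hp he hn).2, ← det_smul_X hp hT, ← LinearMap.det_toLin' g.1,
    ← LinearMap.det_conj (Matrix.toLin' g.1) (Module.AEval'.of (Matrix.toLin' g.1))]
  congr 1
  refine LinearMap.ext fun x => ?_
  obtain ⟨v, rfl⟩ := (Module.AEval'.of (Matrix.toLin' g.1)).surjective x
  show (X : K[X]) • Module.AEval'.of (Matrix.toLin' g.1) v =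
    Module.AEval'.of _ (Matrix.toLin' g.1 ((Module.AEval'.of _).symm (Module.AEval'.of _ v)))
  rw [Module.AEval'.X_smul_of, LinearEquiv.symm_apply_apply]

omit [Fintype K] in
theorem conj_of_encode (g g' : GL (Fin n) K) {m m' : ℕ} {p : Fin m → K[X]} {e : Fin m → ℕ} {p' : Fin m' → K[X]}
    {e' : Fin m' → ℕ} (hp : ∀ i, Irreducible (p i) ∧ (p i).Monic ∧ e i ≠ 0)
    (hp' : ∀ i, Irreducible (p' i) ∧ (p' i).Monic ∧ e' i ≠ 0) (hn : ∀ i, e i ≤ n) (hn' : ∀ i, e' i ≤ n)
    (hT : HasType (M := Module.AEval' (Matrix.toLin' g.1)) p e)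
    (hT' : HasType (M := Module.AEval' (Matrix.toLin' g'.1)) p' e') (he : encode p e n = encode p' e' n) :
    IsConj g g' := by
  obtain ⟨φ⟩ := equiv_of_encode hp hp' hn hn' hT hT' he
  obtain ⟨ψ, hψ⟩ : ∃ ψ : (Fin n → K) ≃ₗ[K] (Fin n → K), ψ = Module.AEval'.of _ ≪≫ₗ φ.restrictScalars K ≪≫ₗ
    (Module.AEval'.of _).symm := ⟨_, rfl⟩
  have hcomm : ∀ v, ψ (Matrix.mulVec g.1 v) = Matrix.mulVec g'.1 (ψ v) := fun v => by
    rw [hψ]
    show (Module.AEval'.of _).symm (φ (Module.AEval'.of _ (Matrix.mulVec g.1 v))) =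
      Matrix.toLin' g'.1 ((Module.AEval'.of _).symm (φ (Module.AEval'.of _ v)))
    rw [← Matrix.toLin'_apply g.1 v, ← Module.AEval'.X_smul_of, map_smul, Module.AEval'.of_symm_X_smul]
  obtain ⟨P, hP⟩ : ∃ P : Matrix (Fin n) (Fin n) K, P = LinearMap.toMatrix' ψ.toLinearMap := ⟨_, rfl⟩
  have hPv : ∀ v, Matrix.mulVec P v = ψ v := fun v => by rw [hP, LinearMap.toMatrix'_mulVec]; rfl
  have hPu : IsUnit P := Matrix.mulVec_injective_iff_isUnit.mp fun v w h => ψ.injective (by rwa [hPv, hPv] at h)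
  refine isConj_iff.mpr ⟨hPu.unit, mul_inv_eq_iff_eq_mul.mpr (Units.ext ?_)⟩
  show P * g.1 = g'.1 * P
  refine Matrix.toLin'.injective (LinearMap.ext fun v => ?_)
  simp only [Matrix.toLin'_mul, LinearMap.comp_apply, Matrix.toLin'_apply, hPv, hcomm]

theorem exists_commute_matrix (g : GL (Fin n) K) {m : ℕ} {p : Fin m → K[X]} {e : Fin m → ℕ}
    (hp : ∀ i, Irreducible (p i) ∧ (p i).Monic) (hT : HasType (M := Module.AEval' (Matrix.toLin' g.1)) p e)
    (i : Fin m) (y : K) : ∃ a : Matrix (Fin n) (Fin n) K, a * g.1 = g.1 * a ∧ a.det = y ^ e i := by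
  obtain ⟨T, hTd⟩ := exists_commute_det hp hT i y
  obtain ⟨L, hL⟩ : ∃ L : (Fin n → K) →ₗ[K] (Fin n → K), L = (Module.AEval'.of _).symm.toLinearMap ∘ₗ
      T.restrictScalars K ∘ₗ (Module.AEval'.of (Matrix.toLin' g.1)).toLinearMap := ⟨_, rfl⟩
  have hLd : L.det = y ^ e i := by
    rw [hL, ← hTd]
    exact LinearMap.det_conj (T.restrictScalars K) (Module.AEval'.of (Matrix.toLin' g.1)).symm
  have hLc : ∀ v, L (Matrix.mulVec g.1 v) = Matrix.mulVec g.1 (L v) := fun v => by
    rw [hL]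
    show (Module.AEval'.of _).symm (T (Module.AEval'.of _ (Matrix.mulVec g.1 v))) =
      Matrix.toLin' g.1 ((Module.AEval'.of _).symm (T (Module.AEval'.of _ v)))
    rw [← Matrix.toLin'_apply g.1 v, ← Module.AEval'.X_smul_of, map_smul, Module.AEval'.of_symm_X_smul]
  refine ⟨LinearMap.toMatrix' L, Matrix.toLin'.injective (LinearMap.ext fun v => ?_), by rw [LinearMap.det_toMatrix', hLd]⟩
  simp only [Matrix.toLin'_mul, Matrix.toLin'_toMatrix', LinearMap.comp_apply, Matrix.toLin'_apply, hLc]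

theorem card_su_classes_le {q : ℕ} (hK : Fintype.card K = q ^ 2) (hθq : ∀ x, θ x = x ^ q) (hθ : ∀ a, θ (θ a) = a)
    (hne : θ ≠ RingHom.id K) [Fintype (SDet θ n)] :
    Nat.card (ConjClasses (Cfsg.SU n K q)) ≤ ∑ h : SDet θ n, splitU q h.1.1.1 := by
  classical
  choose m p e hprop hT using fun g : GL (Fin n) K => exists_data g
  let rep : ConjClasses (Cfsg.SU n K q) → GL (Fin n) K := fun C =>
    Matrix.SpecialLinearGroup.toGL (Quotient.out C : Cfsg.SU n K q).1
  have hrepU : ∀ C, rep C ∈ Cfsg.GU n K q := fun C => (Quotient.out C : Cfsg.SU n K q).2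
  have hrepd : ∀ C, dag θ (rep C).1 * (rep C).1 = 1 := fun C => (mem_GU_dag q hθq hθ _).1 (hrepU C)
  have hp0 : ∀ g i, (p g i).coeff 0 ≠ 0 := fun g i h => (hprop g).2.2.1 i
    (eq_of_monic_of_associated monic_X ((hprop g).1 i).2.1
      (irreducible_X.associated_of_dvd ((hprop g).1 i).1 (X_dvd_iff.mpr h))).symm
  let key : ConjClasses (Cfsg.SU n K q) → SDet θ n := fun C =>
    ⟨⟨⟨encode (p (rep C)) (e (rep C)) n,
      fun j => ⟨monic_prod_of_monic _ _ fun i _ => ((hprop (rep C)).1 i).2.1, by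
        rw [encode, coeff_zero_prod]
        exact Finset.prod_ne_zero_iff.mpr fun i _ => hp0 (rep C) i⟩,
      fun j hj => absurd hj (Nat.not_lt_zero _),
      (encode_weight (fun i => ((hprop (rep C)).1 i).2.1) (fun i => ((hprop (rep C)).1 i).2.2)
        (hprop (rep C)).2.1).1.trans (hprop (rep C)).2.2.2⟩,
      (detVal_encode (rep C) (fun i => ((hprop (rep C)).1 i).2.1) (fun i => ((hprop (rep C)).1 i).2.2)
        (hprop (rep C)).2.1 (hT (rep C))).trans (Quotient.out C : Cfsg.SU n K q).1.2⟩,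
     fun j => encode_self hθ (rep C) (hrepd C) (hprop (rep C)).1 (hp0 (rep C)) (hT (rep C)) j⟩
  rw [← Nat.card_congr (Equiv.sigmaFiberEquiv key), Nat.card_sigma]
  refine Finset.sum_le_sum fun h _ => ?_
  rcases isEmpty_or_nonempty {C // key C = h} with hemp | ⟨⟨C₀, hC₀⟩⟩
  · rw [Nat.card_of_isEmpty]; exact Nat.zero_le _
  obtain ⟨g₀, hg₀⟩ : ∃ g₀, g₀ = rep C₀ := ⟨_, rfl⟩
  have hg₀U : g₀ ∈ Cfsg.GU n K q := hg₀ ▸ hrepU C₀
  have hconj : ∀ C : {C // key C = h}, ∃ c : GL (Fin n) K, c ∈ Cfsg.GU n K q ∧ c * g₀ * c⁻¹ = rep C.1 := by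
    intro C
    have he : encode (p g₀) (e g₀) n = encode (p (rep C.1)) (e (rep C.1)) n := by
      have := congrArg (fun t : SDet θ n => t.1.1.1) (C.2.trans hC₀.symm)
      rw [hg₀]
      exact this.symm
    have h1 := conj_of_encode g₀ (rep C.1) (hprop _).1 (hprop _).1 (hprop _).2.1 (hprop _).2.1 (hT _) (hT _) he
    obtain ⟨⟨c, hc⟩, hc'⟩ := isConj_iff.mp ((Cfsg.Agent.S2587.result hK ⟨g₀, hg₀U⟩ ⟨rep C.1, hrepU C.1⟩).2 h1)
    exact ⟨c, hc, congrArg Subtype.val hc'⟩
  choose c hcU hc using hconj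
  obtain ⟨N, hN⟩ : ∃ N : Subgroup Kˣ, N = (powMonoidHom (q + 1) : Kˣ →* Kˣ).ker := ⟨_, rfl⟩
  have hdetN : ∀ w ∈ Cfsg.GU n K q, Matrix.GeneralLinearGroup.det w ∈ N := fun w hw => by
    rw [hN, MonoidHom.mem_ker, powMonoidHom_apply]
    refine Units.ext ?_
    have h2 := congrArg Matrix.det ((mem_GU_dag q hθq hθ w).1 hw)
    rw [Matrix.det_mul, det_dag, Matrix.det_one, hθq, ← pow_succ] at h2
    rw [Units.val_pow_eq_pow_val, Matrix.GeneralLinearGroup.val_det_apply, Units.val_one]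
    exact h2
  obtain ⟨H, hH⟩ : ∃ H : Subgroup N, H = ((Subgroup.centralizer {g₀} ⊓ Cfsg.GU n K q).map
      Matrix.GeneralLinearGroup.det).subgroupOf N := ⟨_, rfl⟩
  have hinj : Function.Injective fun C : {C // key C = h} =>
      (QuotientGroup.mk (⟨Matrix.GeneralLinearGroup.det (c C), hdetN _ (hcU C)⟩ : N) : N ⧸ H) := by
    intro C C' e'
    rw [QuotientGroup.eq, hH, Subgroup.mem_subgroupOf] at e'
    obtain ⟨z, ⟨hz, hzU⟩, hz'⟩ := e'
    simp only [InvMemClass.coe_inv, MulMemClass.coe_mul] at hz'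
    refine Subtype.ext ?_
    rw [← Quotient.out_eq C.1, ← Quotient.out_eq C'.1]
    refine Quotient.sound (show IsConj (Quotient.out C.1) (Quotient.out C'.1) from ?_)
    obtain ⟨x, hx⟩ : ∃ x, x = c C' * z⁻¹ * (c C)⁻¹ := ⟨_, rfl⟩
    have hsd : x.1.det = 1 := by
      rw [hx, ← Matrix.GeneralLinearGroup.val_det_apply, map_mul, map_mul, map_inv, map_inv, hz']
      simp
    have hxU : x ∈ Cfsg.GU n K q := by
      rw [hx]; exact Subgroup.mul_mem _ (Subgroup.mul_mem _ (hcU C') (inv_mem hzU)) (inv_mem (hcU C))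
    refine isConj_iff.mpr ⟨⟨⟨x.1, hsd⟩, hxU⟩, mul_inv_eq_iff_eq_mul.mpr
      (Subtype.ext (Matrix.SpecialLinearGroup.toGL_injective (Units.ext ?_)))⟩
    show x.1 * (rep C.1).1 = (rep C'.1).1 * x.1
    rw [← Units.val_mul, ← Units.val_mul]
    congr 1
    rw [hx, ← hc C, ← hc C']
    have hz1 : z⁻¹ * g₀ = g₀ * z⁻¹ :=
      Subgroup.mem_centralizer_singleton_iff.mp (inv_mem hz)
    calc c C' * z⁻¹ * (c C)⁻¹ * (c C * g₀ * (c C)⁻¹) = c C' * (z⁻¹ * g₀) * (c C)⁻¹ := by group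
      _ = c C' * g₀ * (c C')⁻¹ * (c C' * z⁻¹ * (c C)⁻¹) := by rw [hz1]; group
  refine (Nat.card_le_card_of_injective _ hinj).trans ?_
  rw [show Nat.card (N ⧸ H) = H.index from rfl]
  have hh : encode (p g₀) (e g₀) n = h.1.1.1 := by
    rw [hg₀]; exact congrArg (fun t : SDet θ n => t.1.1.1) hC₀
  obtain ⟨G, hG⟩ : ∃ G, G = (Finset.univ.filter fun j => h.1.1.1 j ≠ 1).gcd fun j : Fin n => (j : ℕ) + 1 := ⟨_, rfl⟩
  have hrange : (powMonoidHom G : N →* N).range ≤ H := by
    rintro _ ⟨x, rfl⟩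
    rw [powMonoidHom_apply, hG]
    refine pow_gcd_mem H _ _ (fun j hj y => ?_) x
    obtain ⟨i, hi⟩ : ∃ i, e g₀ i = (j : ℕ) + 1 := by
      by_contra hno
      push Not at hno
      refine (Finset.mem_filter.mp hj).2 ?_
      rw [← hh, encode, Finset.prod_eq_one]
      exact fun i hi => absurd (Finset.mem_filter.mp hi).2 (hno i)
    have hy : θ (y.1 : K) * (y.1 : K) = 1 := by
      have h2 : y.1 ^ (q + 1) = 1 := by
        have := y.2; simp only [hN, MonoidHom.mem_ker, powMonoidHom_apply] at this; exact this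
      rw [hθq, ← pow_succ, ← Units.val_pow_eq_pow_val, h2, Units.val_one]
    obtain ⟨b, hb0, hb⟩ := CfsgLib.UnitarySemiCount.exists_hilbert90 hne hθ hy
    obtain ⟨a, ha, had⟩ := exists_commute_matrix g₀ (fun i => ⟨((hprop g₀).1 i).1, ((hprop g₀).1 i).2.1⟩) (hT g₀) i b
    have hau : IsUnit a.det := by rw [had]; exact (Ne.isUnit hb0).pow _
    obtain ⟨w, hw1, hw2, hw3⟩ := exists_unitary_det hθ hne ((mem_GU_dag q hθq hθ g₀).1 hg₀U) hau ha
    have hwu : IsUnit w.det := isUnit_of_mul_isUnit_right (x := (dag θ w).det) (by rw [← Matrix.det_mul, hw1, Matrix.det_one]; exact isUnit_one)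
    rw [hH, Subgroup.mem_subgroupOf]
    refine ⟨Matrix.GeneralLinearGroup.mk'' w hwu, ⟨Subgroup.mem_centralizer_singleton_iff.mpr (Units.ext hw2),
      (mem_GU_dag q hθq hθ _).2 hw1⟩, Units.ext ?_⟩
    rw [Matrix.GeneralLinearGroup.val_det_apply, SubmonoidClass.coe_pow, Units.val_pow_eq_pow_val]
    rw [had, map_pow, hi] at hw3
    refine mul_right_cancel₀ (pow_ne_zero ((j : ℕ) + 1) ((map_ne_zero θ).mpr hb0)) (hw3.trans ?_)
    rw [← mul_pow, hb]
  refine (Nat.le_of_dvd ?_ (Subgroup.index_dvd_of_le hrange)).trans (le_of_eq ?_)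
  · exact Nat.pos_of_ne_zero Subgroup.index_ne_zero_of_finite
  · have hcN : Nat.card N = q + 1 := by
      rw [hN, IsCyclic.card_powMonoidHom_ker, Nat.card_units, Nat.card_eq_fintype_card, hK]
      refine Nat.gcd_eq_right ⟨q - 1, ?_⟩
      rw [← Nat.sq_sub_sq, one_pow]
    rw [IsCyclic.index_powMonoidHom_range, hcN, hG, splitU]
    congr! 3

end CfsgLib.GUClassCount
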