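import Cfsg.Agent.GUClassCount.Bounds
import Cfsg.Agent.GLClassCount.SLBounds
import Cfsg.Agent.UnitarySemiCount.Fixed

/-!
Weighted tuples of self-conjugate polynomials.
-/

set_option autoImplicit false

namespace CfsgLib.GUClassCount

open Polynomial CfsgLib.GLClassCount

variable {K : Type*} [Field K] (θ : K →+* K)

/-- The conjugate reciprocal polynomial. -/
noncomputable def tilde (f : K[X]) : K[X] := C (θ (f.coeff 0))⁻¹ * reverse (f.map θ)

theorem coeff_tilde (f : K[X]) {i : ℕ} (hi : i ≤ f.natDegree) :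
    (tilde θ f).coeff i = (θ (f.coeff 0))⁻¹ * θ (f.coeff (f.natDegree - i)) := by
  rw [tilde, coeff_C_mul, coeff_reverse, natDegree_map, revAt_le hi, coeff_map]

theorem natDegree_tilde {f : K[X]} (h0 : f.coeff 0 ≠ 0) : (tilde θ f).natDegree = f.natDegree := by
  have h0' : (f.map θ).coeff 0 ≠ 0 := by rw [coeff_map]; exact (map_ne_zero θ).mpr h0
  rw [tilde, natDegree_C_mul (inv_ne_zero ((map_ne_zero θ).mpr h0)), reverse_natDegree,
    natTrailingDegree_eq_zero.mpr (Or.inr h0'), natDegree_map, Nat.sub_zero]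

theorem monic_tilde {f : K[X]} (h0 : f.coeff 0 ≠ 0) : (tilde θ f).Monic := by
  rw [Monic, leadingCoeff, natDegree_tilde θ h0, coeff_tilde θ f le_rfl, Nat.sub_self]
  exact inv_mul_cancel₀ ((map_ne_zero θ).mpr h0)

theorem coeff_zero_tilde {f : K[X]} (hf : f.Monic) : (tilde θ f).coeff 0 = (θ (f.coeff 0))⁻¹ := by
  rw [coeff_tilde θ f (Nat.zero_le _), Nat.sub_zero, hf.coeff_natDegree, map_one, mul_one]

theorem tilde_tilde (hθ : ∀ a, θ (θ a) = a) {f : K[X]} (hf : f.Monic) (h0 : f.coeff 0 ≠ 0) :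
    tilde θ (tilde θ f) = f := by
  have hd := natDegree_tilde θ h0
  have h0' : (tilde θ f).coeff 0 ≠ 0 := by rw [coeff_zero_tilde θ hf]; exact inv_ne_zero ((map_ne_zero θ).mpr h0)
  have hd' := (natDegree_tilde θ h0').trans hd
  ext i
  rcases le_or_gt i f.natDegree with hi | hi
  · rw [coeff_tilde θ _ (hd.symm ▸ hi), coeff_zero_tilde θ hf, hd, coeff_tilde θ f (Nat.sub_le _ _),
      Nat.sub_sub_self hi, map_mul, hθ, map_inv₀, hθ, inv_inv, ← mul_assoc, mul_inv_cancel₀ h0, one_mul]
  · rw [coeff_eq_zero_of_natDegree_lt (hd'.symm ▸ hi), coeff_eq_zero_of_natDegree_lt hi]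

theorem tilde_one : tilde θ (1 : K[X]) = 1 := by
  ext i
  rcases Nat.eq_zero_or_pos i with rfl | hi
  · rw [coeff_zero_tilde θ monic_one, coeff_one_zero, map_one, inv_one]
  · rw [coeff_eq_zero_of_natDegree_lt (by rw [natDegree_tilde θ (by simp), natDegree_one]; exact hi),
      coeff_one, if_neg (Nat.ne_of_gt hi)]

theorem tilde_mul (f g : K[X]) : tilde θ (f * g) = tilde θ f * tilde θ g := by
  simp only [tilde, Polynomial.map_mul, reverse_mul_of_domain, mul_coeff_zero, map_mul, mul_inv, C_mul]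
  ring

theorem tilde_prod {ι : Type*} (s : Finset ι) (f : ι → K[X]) : tilde θ (∏ i ∈ s, f i) = ∏ i ∈ s, tilde θ (f i) := by
  classical
  induction s using Finset.induction_on with
  | empty => simp [tilde_one]
  | insert a s has ih => rw [Finset.prod_insert has, Finset.prod_insert has, tilde_mul, ih]

theorem irreducible_tilde (hθ : ∀ a, θ (θ a) = a) {p : K[X]} (hp : p.Monic) (hi : Irreducible p) (h0 : p.coeff 0 ≠ 0) :
    Irreducible (tilde θ p) := by
  have hm := monic_tilde θ h0
  refine hm.irreducible_iff_natDegree.mpr ⟨fun h => ?_, fun a b ha hb hab => ?_⟩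
  · have := congrArg natDegree h
    rw [natDegree_tilde θ h0, natDegree_one] at this
    exact absurd this hi.natDegree_pos.ne'
  · have hc : (tilde θ p).coeff 0 ≠ 0 := by rw [coeff_zero_tilde θ hp]; exact inv_ne_zero ((map_ne_zero θ).mpr h0)
    rw [← hab, mul_coeff_zero, mul_ne_zero_iff] at hc
    have e : tilde θ a * tilde θ b = p := by rw [← tilde_mul, hab, tilde_tilde θ hθ hp h0]
    rcases (hp.irreducible_iff_natDegree.mp hi).2 _ _ (monic_tilde θ hc.1) (monic_tilde θ hc.2) e with h | h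
    · left; rwa [natDegree_tilde θ hc.1] at h
    · right; rwa [natDegree_tilde θ hc.2] at h

theorem coeff_zero_norm {f : K[X]} (hf : f.Monic) (h0 : f.coeff 0 ≠ 0) (h : tilde θ f = f) :
    θ (f.coeff 0) * f.coeff 0 = 1 := by
  have := coeff_zero_tilde θ hf
  rw [h] at this
  conv_lhs => arg 2; rw [this]
  exact mul_inv_cancel₀ ((map_ne_zero θ).mpr h0)

theorem coeff_twisted {f : K[X]} (hf : f.Monic) {d : ℕ} (hd : f.natDegree = d + 1) (h : tilde θ f = f) (i : Fin d) :
    f.coeff ((i : ℕ) + 1) = f.coeff 0 * θ (f.coeff ((Fin.rev i : ℕ) + 1)) := by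
  have h1 : f.coeff 0 = (θ (f.coeff 0))⁻¹ := by conv_lhs => rw [← h, coeff_zero_tilde θ hf]
  have h2 := congrArg (fun p => p.coeff ((i : ℕ) + 1)) h
  simp only [coeff_tilde θ f (show (i : ℕ) + 1 ≤ f.natDegree by omega)] at h2
  rw [← h2, ← h1, Fin.val_rev, hd]
  congr 3
  omega

variable [Fintype K] {q : ℕ}

theorem card_norm_one (hθq : ∀ x, θ x = x ^ q) : Nat.card {x : K // θ x * x = 1} ≤ q + 1 := by
  classical
  let f : {x : K // θ x * x = 1} → nthRootsFinset (q + 1) (1 : K) := fun x => ⟨x.1, by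
    rw [mem_nthRootsFinset (Nat.succ_pos _), pow_succ, ← hθq]; exact x.2⟩
  refine (Nat.card_le_card_of_injective f fun a b h => Subtype.ext (congrArg (fun z => z.1) h)).trans ?_
  rw [Nat.card_eq_fintype_card, Fintype.card_coe, nthRootsFinset_def]
  exact (Multiset.toFinset_card_le _).trans (card_nthRoots _ _)

/-- Self-conjugate weighted tuples. -/
abbrev STuples (n i w : ℕ) := {h : Tuples K n i w // ∀ j, tilde θ (h.1 j) = h.1 j}

theorem detVal_norm {n : ℕ} {h : Fin n → K[X]} (hh : ∀ j, (h j).Monic ∧ (h j).coeff 0 ≠ 0)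
    (hs : ∀ j, tilde θ (h j) = h j) : θ (detVal h) * detVal h = 1 := by
  rw [detVal, map_prod, ← Finset.prod_mul_distrib]
  refine Finset.prod_eq_one fun j _ => ?_
  rw [map_pow, ← mul_pow, map_mul, map_pow, map_neg, map_one, mul_mul_mul_comm, ← mul_pow, neg_mul_neg, one_mul,
    one_pow, one_mul, coeff_zero_norm θ (hh j).1 (hh j).2 (hs j), one_pow]

variable (hK : Fintype.card K = q ^ 2) (hθq : ∀ x, θ x = x ^ q) (hθ : ∀ a, θ (θ a) = a) (hne : θ ≠ RingHom.id K)
include hK hθq hθ hne

theorem self_poly_bound (d : ℕ) :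
    Finite {f : MonicUnitCoeff K d // tilde θ f.1 = f.1} ∧
      Nat.card {f : MonicUnitCoeff K d // tilde θ f.1 = f.1} ≤ cntU q d := by
  have := (monicUnitCoeff_bound K d).1
  refine ⟨inferInstance, ?_⟩
  rcases d with _ | e
  · refine Finite.card_le_one_iff_subsingleton.mpr ⟨fun f g => Subtype.ext (Subtype.ext ?_)⟩
    rw [f.1.2.1.natDegree_eq_zero.mp f.1.2.2.1, g.1.2.1.natDegree_eq_zero.mp g.1.2.2.1]
  · let T := Σ c : {x : K // θ x * x = 1}, {v : Fin e → K // ∀ i, v i = c.1 * θ (v (Fin.rev i))}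
    let Φ : {f : MonicUnitCoeff K (e + 1) // tilde θ f.1 = f.1} → T := fun f =>
      ⟨⟨f.1.1.coeff 0, coeff_zero_norm θ f.1.2.1 f.1.2.2.2 f.2⟩,
        ⟨fun i => f.1.1.coeff ((i : ℕ) + 1), coeff_twisted θ f.1.2.1 f.1.2.2.1 f.2⟩⟩
    have hΦ : Function.Injective Φ := fun f g h => by
      have e1 := congrArg (fun t : T => t.1.1) h
      have e2 := congrArg (fun t : T => t.2.1) h
      exact Subtype.ext (Subtype.ext (monic_ext K f.1.2.1 g.1.2.1 f.1.2.2.1 g.1.2.2.1 e1 (congrFun e2)))
    refine (Nat.card_le_card_of_injective Φ hΦ).trans ?_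
    haveI : Fintype {x : K // θ x * x = 1} := Fintype.ofFinite _
    rw [Nat.card_sigma]
    refine (Finset.sum_le_card_nsmul _ _ (q ^ e) fun c _ => le_of_eq ?_).trans ?_
    · rw [CfsgLib.UnitarySemiCount.card_twisted_fixed hK θ hθ hne Fin.rev Fin.rev_rev c.2, Fintype.card_fin]
    · rw [smul_eq_mul, Finset.card_univ, ← Nat.card_eq_fintype_card]
      exact Nat.mul_le_mul_right _ (card_norm_one θ hθq)

theorem stuples_bound (n : ℕ) : ∀ k i w, i + k = n →
    Finite (STuples θ n i w) ∧ Nat.card (STuples θ n i w) ≤ bndU q k i w := by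
  classical
  intro k
  induction k with
  | zero =>
    intro i w hi
    have hone : ∀ (h : Tuples K n i w) j, h.1 j = 1 := fun h j => h.2.2.1 j (by omega)
    have hsub : Subsingleton (STuples θ n i w) :=
      ⟨fun h g => Subtype.ext (Subtype.ext (funext fun j => (hone h.1 j).trans (hone g.1 j).symm))⟩
    refine ⟨inferInstance, ?_⟩
    by_cases hw : w = 0
    · rw [bndU, if_pos hw]; exact Finite.card_le_one_iff_subsingleton.mpr hsub
    · have : IsEmpty (STuples θ n i w) := ⟨fun h => hw (by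
        rw [← h.1.2.2.2]; exact Finset.sum_eq_zero fun j _ => by rw [hone h.1 j]; simp)⟩
      rw [bndU, if_neg hw, Nat.card_of_isEmpty]
  | succ k ih =>
    intro i w hi
    let j₀ : Fin n := ⟨i, by omega⟩
    have hsum : ∀ h : STuples θ n i w, (i + 1) * (h.1.1 j₀).natDegree +
        ∑ j : Fin n, ((j : ℕ) + 1) * (Function.update h.1.1 j₀ 1 j).natDegree = w := fun h => by
      conv_rhs => rw [← h.1.2.2.2]
      rw [← Finset.add_sum_erase _ _ (Finset.mem_univ j₀), ← Finset.add_sum_erase _ _ (Finset.mem_univ j₀),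
        Function.update_self, natDegree_one, Nat.mul_zero, Nat.zero_add]
      refine congrArg _ (Finset.sum_congr rfl fun j hj => ?_)
      rw [Function.update_of_ne (Finset.ne_of_mem_erase hj)]
    have hd : ∀ h : STuples θ n i w, (h.1.1 j₀).natDegree < w / (i + 1) + 1 := fun h => by
      rw [Nat.lt_succ_iff, Nat.le_div_iff_mul_le (Nat.succ_pos i), mul_comm]
      exact (Nat.le_add_right _ _).trans (hsum h).le
    let T := Σ d : Fin (w / (i + 1) + 1),
      {f : MonicUnitCoeff K d // tilde θ f.1 = f.1} × STuples θ n (i + 1) (w - (i + 1) * d)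
    let Φ : STuples θ n i w → T := fun h =>
      ⟨⟨_, hd h⟩, ⟨⟨h.1.1 j₀, (h.1.2.1 j₀).1, rfl, (h.1.2.1 j₀).2⟩, h.2 j₀⟩, ⟨⟨Function.update h.1.1 j₀ 1, fun j => by
        rcases eq_or_ne j j₀ with rfl | hj
        · rw [Function.update_self]; exact ⟨monic_one, by simp⟩
        · rw [Function.update_of_ne hj]; exact h.1.2.1 j, fun j hj => by
        rcases eq_or_ne j j₀ with rfl | hj'
        · rw [Function.update_self]
        · rw [Function.update_of_ne hj']
          exact h.1.2.2.1 j (lt_of_le_of_ne (Nat.lt_succ_iff.mp hj) fun e => hj' (Fin.ext e)), by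
        have := hsum h; dsimp only; omega⟩, fun j => by
          dsimp only
          rcases eq_or_ne j j₀ with rfl | hj
          · rw [Function.update_self]; exact tilde_one θ
          · rw [Function.update_of_ne hj]; exact h.2 j⟩⟩
    have hΦ : Function.Injective Φ := fun h g e => by
      have e1 := congrArg (fun t : T => t.2.1.1.1) e
      have e2 := congrArg (fun t : T => t.2.2.1.1) e
      refine Subtype.ext (Subtype.ext (funext fun j => ?_))
      rcases eq_or_ne j j₀ with rfl | hj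
      · exact e1
      · have := congrFun e2 j
        simpa only [Φ, Function.update_of_ne hj] using this
    have hP := fun d => self_poly_bound θ hK hθq hθ hne d
    have hT := fun d : ℕ => ih (i + 1) (w - (i + 1) * d) (by omega)
    have : ∀ d, Finite {f : MonicUnitCoeff K d // tilde θ f.1 = f.1} := fun d => (hP d).1
    have : ∀ d : ℕ, Finite (STuples θ n (i + 1) (w - (i + 1) * d)) := fun d => (hT d).1
    refine ⟨Finite.of_injective Φ hΦ, le_trans (Nat.card_le_card_of_injective Φ hΦ) ?_⟩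
    rw [Nat.card_sigma, bndU, ← Fin.sum_univ_eq_sum_range (fun d => cntU q d * bndU q k (i + 1) (w - (i + 1) * d))]
    refine Finset.sum_le_sum fun d _ => ?_
    rw [Nat.card_prod]
    exact Nat.mul_le_mul (hP d).2 (hT d).2

omit hK hθq hθ hne

/-- Self-conjugate tuples of determinant one. -/
abbrev SDet (n : ℕ) := {h : DetOne K n // ∀ j, tilde θ (h.1.1 j) = h.1.1 j}

/-- Bound for the number of special unitary classes in one unitary class. -/
noncomputable def splitU (q : ℕ) {n : ℕ} (h : Fin n → K[X]) : ℕ :=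
  haveI : DecidableEq K[X] := Classical.decEq _
  Nat.gcd (q + 1) ((Finset.univ.filter fun j => h j ≠ 1).gcd fun j : Fin n => (j : ℕ) + 1)

theorem finite_sdet (n : ℕ) : Finite (SDet θ n) :=
  have := finite_detOne K n
  inferInstance

theorem splitU_dvd (q : ℕ) {n : ℕ} (h : Fin n → K[X]) (j : Fin n) (hj : h j ≠ 1) : splitU q h ∣ (j : ℕ) + 1 := by
  letI : DecidableEq K[X] := Classical.decEq _
  exact (Nat.gcd_dvd_right _ _).trans (Finset.gcd_dvd (Finset.mem_filter.mpr ⟨Finset.mem_univ j, hj⟩))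

theorem splitU_dvd_weight (q : ℕ) {n : ℕ} (h : Tuples K n 0 n) : splitU q h.1 ∣ n := by
  have hd : ∀ j : Fin n, splitU q h.1 ∣ ((j : ℕ) + 1) * (h.1 j).natDegree := fun j => by
    by_cases e : h.1 j = 1
    · rw [e, natDegree_one, Nat.mul_zero]; exact dvd_zero _
    · exact Dvd.dvd.mul_right (splitU_dvd q h.1 j e) _
  have := Finset.dvd_sum (s := Finset.univ) fun j _ => hd j
  rwa [h.2.2.2] at this

include hK hθq hθ hne

theorem card_sdet_le {n : ℕ} (hn : 1 ≤ n) : Nat.card (SDet θ n) ≤ mainCount q n := by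
  classical
  have := finite_sdet θ n
  obtain ⟨j₀, hj₀⟩ : ∃ j₀ : Fin n, j₀ = ⟨0, hn⟩ := ⟨_, rfl⟩
  have hT := fun w => stuples_bound θ hK hθq hθ hne n (n - 1) 1 w (by omega)
  have hTf : ∀ w, Finite (STuples θ n 1 w) := fun w => (hT w).1
  rw [← Nat.card_congr (Equiv.sumCompl fun h : SDet θ n => h.1.1.1 j₀ = 1), Nat.card_sum, Nat.add_comm, mainCount]
  refine Nat.add_le_add ?_ ?_
  · let sgn : ∀ {w : ℕ}, ℕ → STuples θ n 1 w → K := fun d h => ((-1) ^ (d + 1) * detVal h.1.1)⁻¹
    have hsgn : ∀ {w : ℕ} (d : ℕ) (h : STuples θ n 1 w), θ (sgn d h) * sgn d h = 1 := fun d h => by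
      simp only [sgn]
      rw [map_inv₀, ← mul_inv, map_mul, map_pow, map_neg, map_one, mul_mul_mul_comm, ← mul_pow, neg_mul_neg, one_mul,
        one_pow, one_mul, detVal_norm θ h.1.2.1 h.2, inv_one]
    let T := Σ d : Fin n, Σ h : STuples θ n 1 (n - 1 - d), {v : Fin d → K // ∀ i, v i = sgn d h * θ (v (Fin.rev i))}
    let S := {h : SDet θ n // ¬ h.1.1.1 j₀ = 1}
    have hdeg : ∀ h : S, 1 ≤ (h.1.1.1.1 j₀).natDegree := fun h => by
      by_contra hc
      exact h.2 ((h.1.1.1.2.1 j₀).1.natDegree_eq_zero.mp (by omega))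
    have hsum : ∀ h : S, (h.1.1.1.1 j₀).natDegree +
        ∑ j : Fin n, ((j : ℕ) + 1) * (Function.update h.1.1.1.1 j₀ 1 j).natDegree = n := fun h => by
      conv_rhs => rw [← h.1.1.1.2.2.2]
      rw [← Finset.add_sum_erase _ _ (Finset.mem_univ j₀), ← Finset.add_sum_erase _ _ (Finset.mem_univ j₀),
        Function.update_self, natDegree_one, Nat.mul_zero, Nat.zero_add,
        show ((j₀ : Fin n) : ℕ) + 1 = 1 by rw [hj₀], Nat.one_mul]
      refine congrArg _ (Finset.sum_congr rfl fun j hj => ?_)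
      rw [Function.update_of_ne (Finset.ne_of_mem_erase hj)]
    have hlt : ∀ h : S, (h.1.1.1.1 j₀).natDegree - 1 < n := fun h => by have := hsum h; have := hdeg h; omega
    have hdv : ∀ h : S, (-1) ^ (h.1.1.1.1 j₀).natDegree * detVal (Function.update h.1.1.1.1 j₀ 1) *
        (h.1.1.1.1 j₀).coeff 0 = 1 := fun h => by
      refine Eq.trans ?_ h.1.1.2
      simp only [detVal]
      rw [← Finset.mul_prod_erase _ _ (Finset.mem_univ j₀), ← Finset.mul_prod_erase _ _ (Finset.mem_univ j₀)]
      simp only [Function.update_self, natDegree_one, pow_zero, coeff_one_zero, one_mul, one_pow]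
      rw [show ((j₀ : Fin n) : ℕ) + 1 = 1 by rw [hj₀], pow_one, mul_right_comm]
      congr 1
      exact Finset.prod_congr rfl fun j hj => by rw [Function.update_of_ne (Finset.ne_of_mem_erase hj)]
    let Φ : S → T := fun h => ⟨⟨_, hlt h⟩, ⟨⟨Function.update h.1.1.1.1 j₀ 1, fun j => by
        rcases eq_or_ne j j₀ with rfl | hj
        · rw [Function.update_self]; exact ⟨monic_one, by simp⟩
        · rw [Function.update_of_ne hj]; exact h.1.1.1.2.1 j, fun j hj => by
        rw [show j = j₀ from Fin.ext (by rw [hj₀]; show (j : ℕ) = 0; omega), Function.update_self], by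
        have := hsum h; have := hdeg h; dsimp only; omega⟩, fun j => by
          dsimp only
          rcases eq_or_ne j j₀ with rfl | hj
          · rw [Function.update_self]; exact tilde_one θ
          · rw [Function.update_of_ne hj]; exact h.1.2 j⟩,
      ⟨fun i => (h.1.1.1.1 j₀).coeff ((i : ℕ) + 1), fun i => by
        have hd := hdeg h
        show _ = ((-1) ^ ((h.1.1.1.1 j₀).natDegree - 1 + 1) * detVal (Function.update h.1.1.1.1 j₀ 1))⁻¹ * _
        rw [Nat.sub_add_cancel hd, inv_eq_of_mul_eq_one_right (hdv h)]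
        exact coeff_twisted θ (h.1.1.1.2.1 j₀).1 (Nat.sub_add_cancel hd).symm (h.1.2 j₀) i⟩⟩
    have hinj : Function.Injective Φ := fun h g e => by
      have e1 : (h.1.1.1.1 j₀).natDegree = (g.1.1.1.1 j₀).natDegree := by
        have := congrArg (fun t : T => (t.1 : ℕ)) e
        have := hdeg h; have := hdeg g
        simp only [Φ] at *
        omega
      have e2 : Function.update h.1.1.1.1 j₀ 1 = Function.update g.1.1.1.1 j₀ 1 := congrArg (fun t : T => t.2.1.1.1) e
      have e3 : ∀ i, i < (h.1.1.1.1 j₀).natDegree - 1 → (h.1.1.1.1 j₀).coeff (i + 1) = (g.1.1.1.1 j₀).coeff (i + 1) :=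
        fun i hi => by
          have := congrArg (fun t : T => if hh : i < (t.1 : ℕ) then t.2.2.1 ⟨i, hh⟩ else 0) e
          simp only [Φ] at this
          rwa [dif_pos hi, dif_pos (by rwa [← e1])] at this
      have hh := hdv h
      have hg := hdv g
      rw [← e1, ← e2] at hg
      refine Subtype.ext (Subtype.ext (Subtype.ext (Subtype.ext (funext fun j => ?_))))
      rcases eq_or_ne j j₀ with rfl | hj
      · exact monic_ext K (h.1.1.1.2.1 j).1 (g.1.1.1.2.1 j).1 (d := (h.1.1.1.1 j).natDegree - 1)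
          (by have := hdeg h; omega) (by have := hdeg h; omega)
          ((inv_eq_of_mul_eq_one_right hh).symm.trans (inv_eq_of_mul_eq_one_right hg)) fun i => e3 i i.2
      · have := congrFun e2 j
        rwa [Function.update_of_ne hj, Function.update_of_ne hj] at this
    refine (Nat.card_le_card_of_injective Φ hinj).trans ?_
    rw [Nat.card_sigma, ← Finset.sum_range_reflect, ← Fin.sum_univ_eq_sum_range]
    refine Finset.sum_le_sum fun d _ => ?_
    haveI : Fintype (STuples θ n 1 (n - 1 - d)) := Fintype.ofFinite _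
    rw [Nat.card_sigma, Finset.sum_congr rfl fun h _ => by
      rw [CfsgLib.UnitarySemiCount.card_twisted_fixed hK θ hθ hne Fin.rev Fin.rev_rev (hsgn d h), Fintype.card_fin],
      Finset.sum_const, Finset.card_univ, ← Nat.card_eq_fintype_card, smul_eq_mul, mul_comm,
      show n - 1 - (n - 1 - (d : ℕ)) = d by omega]
    exact Nat.mul_le_mul_left _ (hT _).2
  · refine le_trans (Nat.card_le_card_of_injective (fun h : {h : SDet θ n // h.1.1.1 j₀ = 1} =>
      (⟨⟨h.1.1.1.1, h.1.1.1.2.1, fun j hj => by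
        rw [show j = j₀ from Fin.ext (by rw [hj₀]; show (j : ℕ) = 0; omega)]; exact h.2, h.1.1.1.2.2.2⟩, h.1.2⟩ :
        STuples θ n 1 n)) fun a b e => Subtype.ext (Subtype.ext (Subtype.ext (Subtype.ext
          (congrArg (fun t : STuples θ n 1 n => t.1.1) e :))))) (hT n).2

/-- Tuples split by a fixed amount are contractions. -/
theorem card_split_eq_le {n r : ℕ} (hr : 1 ≤ r) (hrn : r ∣ n) :
    Nat.card {h : SDet θ n // splitU q h.1.1.1 = r} ≤ bndU q (n / r) 0 (n / r) := by
  classical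
  obtain ⟨w, rfl⟩ := hrn
  rw [Nat.mul_div_cancel_left _ hr]
  have hidx : ∀ k : Fin w, r * ((k : ℕ) + 1) - 1 < r * w := fun k => by
    have := Nat.mul_le_mul_left r (show (k : ℕ) + 1 ≤ w from k.2)
    have : 1 ≤ r * ((k : ℕ) + 1) := Nat.mul_pos hr (Nat.succ_pos _)
    omega
  let ψ : Fin w → Fin (r * w) := fun k => ⟨_, hidx k⟩
  have hψv : ∀ k, (ψ k : ℕ) + 1 = r * ((k : ℕ) + 1) := fun k =>
    Nat.sub_add_cancel (Nat.mul_pos hr (Nat.succ_pos _))
  have hψ : Function.Injective ψ := fun a b e => by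
    have e' := congrArg (fun x : Fin (r * w) => (x : ℕ) + 1) e
    simp only [hψv] at e'
    exact Fin.ext (Nat.add_right_cancel (Nat.eq_of_mul_eq_mul_left hr e'))
  let S := {h : SDet θ (r * w) // splitU q h.1.1.1 = r}
  have hout : ∀ (h : S) j, j ∉ Set.range ψ → h.1.1.1.1 j = 1 := fun h j hj => by
    by_contra hne'
    obtain ⟨c, hc⟩ : r ∣ (j : ℕ) + 1 := by
      have := splitU_dvd q h.1.1.1.1 j hne'
      rwa [h.2] at this
    have hc1 : 1 ≤ c := Nat.pos_of_ne_zero fun e => by rw [e, Nat.mul_zero] at hc; omega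
    have hcw : c ≤ w := Nat.le_of_mul_le_mul_left (hc ▸ (show (j : ℕ) + 1 ≤ r * w from j.2)) hr
    refine hj ⟨⟨c - 1, by omega⟩, Fin.ext (Nat.add_right_cancel ((hψv _).trans ?_))⟩
    rw [hc]
    congr 1
    exact Nat.sub_add_cancel hc1
  let Φ : S → STuples θ w 0 w := fun h => ⟨⟨fun k => h.1.1.1.1 (ψ k), fun k => h.1.1.1.2.1 _,
    fun k hk => absurd hk (Nat.not_lt_zero _), by
      refine Nat.eq_of_mul_eq_mul_left hr ?_
      conv_rhs => rw [← h.1.1.1.2.2.2]
      rw [Finset.mul_sum]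
      refine Finset.sum_of_injOn ψ hψ.injOn (fun _ _ => Finset.mem_coe.mpr (Finset.mem_univ _)) (fun j _ hj => ?_)
        (fun k _ => by rw [← Nat.mul_assoc, hψv])
      rw [hout h j fun ⟨k, hk⟩ => hj ⟨k, Finset.mem_coe.mpr (Finset.mem_univ _), hk⟩, natDegree_one, Nat.mul_zero]⟩,
    fun k => h.1.2 _⟩
  have hΦ : Function.Injective Φ := fun h g e => by
    refine Subtype.ext (Subtype.ext (Subtype.ext (Subtype.ext (funext fun j => ?_))))
    by_cases hj : j ∈ Set.range ψ
    · obtain ⟨k, rfl⟩ := hj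
      exact congrFun (congrArg (fun t : STuples θ w 0 w => t.1.1) e :) k
    · rw [hout h j hj, hout g j hj]
  obtain ⟨hf, hb⟩ := stuples_bound θ hK hθq hθ hne w w 0 w (Nat.zero_add w)
  exact (Nat.card_le_card_of_injective Φ hΦ).trans hb

theorem sum_splitU_le {n : ℕ} (hn : 1 ≤ n) [Fintype (SDet θ n)] :
    ∑ h : SDet θ n, splitU q h.1.1.1 ≤ mainCount q n + extraCount q n (q + 1) := by
  classical
  have hmem : ∀ h : SDet θ n, splitU q h.1.1.1 ≠ 1 →
      splitU q h.1.1.1 ∈ (Finset.range (n + 1)).filter (fun r => 2 ≤ r ∧ r ∣ n ∧ r ≤ q + 1) := fun h hne' => by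
    have h1 := splitU_dvd_weight q h.1.1
    have h2 : splitU q h.1.1.1 ≤ q + 1 := Nat.le_of_dvd (Nat.succ_pos q) (Nat.gcd_dvd_left _ _)
    have h3 : 0 < splitU q h.1.1.1 := Nat.gcd_pos_of_pos_left _ (Nat.succ_pos q)
    exact Finset.mem_filter.mpr ⟨Finset.mem_range.mpr (Nat.lt_succ_of_le (Nat.le_of_dvd hn h1)), by omega, h1, h2⟩
  have hpos : ∀ h : SDet θ n, 1 ≤ splitU q h.1.1.1 := fun h => Nat.gcd_pos_of_pos_left _ (Nat.succ_pos q)
  rw [← Finset.sum_congr rfl (fun h _ => Nat.add_sub_cancel' (hpos h)), Finset.sum_add_distrib, Finset.sum_const,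
    Finset.card_univ, smul_eq_mul, mul_one, ← Nat.card_eq_fintype_card]
  refine Nat.add_le_add (card_sdet_le θ hK hθq hθ hne hn) ?_
  rw [← Finset.sum_filter_add_sum_filter_not Finset.univ fun h : SDet θ n => splitU q h.1.1.1 = 1,
    Finset.sum_eq_zero (fun h hh => by rw [(Finset.mem_filter.mp hh).2, Nat.sub_self]), Nat.zero_add,
    ← Finset.sum_fiberwise_of_maps_to (t := (Finset.range (n + 1)).filter (fun r => 2 ≤ r ∧ r ∣ n ∧ r ≤ q + 1))
      (g := fun h : SDet θ n => splitU q h.1.1.1) (fun h hh => hmem h (Finset.mem_filter.mp hh).2), extraCount]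
  refine Finset.sum_le_sum fun r hr => ?_
  obtain ⟨hr1, hr2, -⟩ := (Finset.mem_filter.mp hr).2
  refine (Finset.sum_le_card_nsmul _ _ (r - 1) fun h hh => le_of_eq (by rw [(Finset.mem_filter.mp hh).2])).trans ?_
  rw [smul_eq_mul, Nat.mul_comm]
  refine Nat.mul_le_mul_left _ (le_trans (Finset.card_le_card (t := Finset.univ.filter fun h : SDet θ n => splitU q h.1.1.1 = r)
    fun h hh => Finset.mem_filter.mpr ⟨Finset.mem_univ _, (Finset.mem_filter.mp hh).2⟩) ?_)
  rw [← Fintype.card_subtype, ← Nat.card_eq_fintype_card]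
  exact card_split_eq_le θ hK hθq hθ hne (by omega) hr2

end CfsgLib.GUClassCount
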